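import Mathlib
import Cfsg.Agent.PSolv.HallHigman
import Cfsg.Agent.SylowInter.CoreAut
import Cfsg.Agent.Coprime.Action
import Cfsg.Agent.TwoGroups.UniqueInvolution
import Cfsg.Agent.Cores.Basic
import Cfsg.Agent.S0215

/-!
# Cyclic Sylow 2-intersections: normal cyclic 2-subgroups are central

In a finite nonsolvable group with trivial odd core in which distinct Sylow 2-subgroups meet in
cyclic groups, a normal cyclic 2-subgroup is central.  The proof is elementary, modulo the odd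
order theorem (taken as a hypothesis) and the Z*-theorem.
-/

set_option autoImplicit false

namespace Cfsg.Agent.Inv65.CycRad

open Subgroup

universe u

variable {G : Type u} [Group G] [Finite G]

/-- Distinct Sylow 2-subgroups meet in cyclic groups. -/
def CycInt (G : Type u) [Group G] : Prop :=
  ∀ S T : Sylow 2 G, S ≠ T → IsCyclic ↥((S : Subgroup G) ⊓ (T : Subgroup G))

theorem sylow_eq (hC : CycInt G) {Y : Subgroup G} (hY : ¬ IsCyclic Y) {S T : Sylow 2 G}
    (hS : Y ≤ S) (hT : Y ≤ T) : S = T := by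
  by_contra h
  have := hC S T h
  exact hY (isCyclic_of_injective (inclusion (le_inf hS hT)) (inclusion_injective _))

omit [Finite G] in
theorem isPGroup_zpowers_of_sq {y : G} (hy : y * y = 1) : IsPGroup 2 (zpowers y) := by
  rintro ⟨q, hq⟩
  obtain ⟨i, rfl⟩ := mem_zpowers_iff.1 hq
  refine ⟨1, Subtype.ext ?_⟩
  show (y ^ i) ^ (2 ^ 1) = 1
  rw [pow_one, pow_two, ← (Commute.refl y).mul_zpow, hy, one_zpow]

theorem mem_of_normalizes (hC : CycInt G) {Y : Subgroup G} (hY : ¬ IsCyclic Y) {S : Sylow 2 G}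
    (hS : Y ≤ S) {g : G} (hg : IsPGroup 2 (zpowers g)) (hn : g ∈ normalizer (Y : Set G)) :
    g ∈ S := by
  have h2 : IsPGroup 2 ↥(zpowers g ⊔ Y) :=
    hg.to_sup_of_normal_right' (S.isPGroup'.to_le hS) (zpowers_le.2 hn)
  obtain ⟨T, hT⟩ := h2.exists_le_sylow
  rw [sylow_eq hC hY hS (le_sup_right.trans hT)]
  exact hT (mem_sup_left (mem_zpowers g))

omit [Finite G] in
theorem not_isCyclic_of_noncomm {Y : Subgroup G} {x y : G} (hx : x ∈ Y) (hy : y ∈ Y)
    (h : ¬ Commute x y) : ¬ IsCyclic Y := by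
  intro hc
  obtain ⟨g, hg⟩ := hc.exists_generator
  obtain ⟨i, hi⟩ := mem_zpowers_iff.1 (hg ⟨x, hx⟩)
  obtain ⟨j, hj⟩ := mem_zpowers_iff.1 (hg ⟨y, hy⟩)
  apply h
  have : Commute (⟨x, hx⟩ : Y) ⟨y, hy⟩ := hi ▸ hj ▸ (Commute.refl g).zpow_zpow i j
  exact congrArg Subtype.val this

theorem not_isCyclic_of_two {Y : Subgroup G} {x y : G} (hx : x ∈ Y) (hy : y ∈ Y)
    (hx1 : x ≠ 1) (hy1 : y ≠ 1) (hx2 : x * x = 1) (hy2 : y * y = 1) (hne : x ≠ y) :
    ¬ IsCyclic Y := by
  classical
  intro hc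
  have := Fintype.ofFinite Y
  have h := IsCyclic.card_pow_eq_one_le (α := Y) (n := 2) two_pos
  have hsub : ({1, ⟨x, hx⟩, ⟨y, hy⟩} : Finset Y) ⊆ Finset.univ.filter fun a : Y => a ^ 2 = 1 := by
    intro a ha
    simp only [Finset.mem_insert, Finset.mem_singleton] at ha
    refine Finset.mem_filter.2 ⟨Finset.mem_univ _, Subtype.ext ?_⟩
    rcases ha with rfl | rfl | rfl <;> simp [pow_two, hx2, hy2]
  have h3 : ({1, ⟨x, hx⟩, ⟨y, hy⟩} : Finset Y).card = 3 := by
    rw [Finset.card_insert_of_notMem, Finset.card_pair]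
    · simpa using hne
    · simp [Finset.mem_insert, Subtype.ext_iff, Ne.symm hx1, Ne.symm hy1]
  have := (Finset.card_le_card hsub).trans h
  omega

theorem mem_normalizer_of_conj {Y : Subgroup G} {g : G} (h : ∀ y ∈ Y, g * y * g⁻¹ ∈ Y) :
    g ∈ normalizer (Y : Set G) := by
  refine mem_normalizer_iff.2 fun n => ⟨h n, fun hn => ?_⟩
  have hle : Y.map (MulAut.conj g).toMonoidHom ≤ Y := by
    rintro _ ⟨y, hy, rfl⟩; exact h y hy
  have heq : Y.map (MulAut.conj g).toMonoidHom = Y := by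
    refine Subgroup.eq_of_le_of_card_ge hle ?_
    rw [Nat.card_congr (Y.equivMapOfInjective _ (MulAut.conj g).injective).toEquiv.symm]
  obtain ⟨y, hy, he⟩ := heq.ge hn
  have he' : g * y * g⁻¹ = g * n * g⁻¹ := he
  rwa [mul_left_cancel (mul_right_cancel he')] at hy

omit [Finite G] in
theorem conj_mem_smul {S : Sylow 2 G} {x : G} (g : G) (hx : x ∈ S) :
    g * x * g⁻¹ ∈ (g • S : Sylow 2 G) := by
  show g * x * g⁻¹ ∈ ((g • S : Sylow 2 G) : Subgroup G)
  rw [Sylow.smul_def, Sylow.pointwise_smul_def]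
  exact Subgroup.smul_mem_pointwise_smul x (MulAut.conj g) _ hx

omit [Finite G] in
theorem zpowers_pow_mem {H : Subgroup G} {d : G} {m n : ℕ} (hco : Nat.Coprime m n)
    (hm : d ^ m ∈ H) (hn : d ^ n ∈ H) : d ∈ H := by
  have h := Nat.gcd_eq_gcd_ab m n
  rw [hco.gcd_eq_one] at h
  have : d = (d ^ m) ^ Nat.gcdA m n * (d ^ n) ^ Nat.gcdB m n := by
    rw [← zpow_natCast d m, ← zpow_natCast d n, ← zpow_mul, ← zpow_mul, ← zpow_add, ← h]
    simp
  rw [this]
  exact mul_mem (zpow_mem hm _) (zpow_mem hn _)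

section Normal

variable {v : G} [hV : (zpowers v).Normal]

/-- The preimage in `G` of the subgroup generated by the image of `x` modulo `⟨v⟩`. -/
def pre (v : G) [(zpowers v).Normal] (x : G) : Subgroup G :=
  (zpowers (QuotientGroup.mk' (zpowers v) x)).comap (QuotientGroup.mk' (zpowers v))

local notation "π" => QuotientGroup.mk' (zpowers v)

omit [Finite G] in
theorem self_mem_pre (x : G) : x ∈ pre v x := mem_comap.2 (mem_zpowers _)

omit [Finite G] in
theorem v_le_pre (x : G) : zpowers v ≤ pre v x := fun y hy => by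
  refine mem_comap.2 ?_
  rw [show π y = 1 from (QuotientGroup.eq_one_iff y).2 hy]
  exact one_mem _

omit [Finite G] in
theorem pre_le {x : G} {H : Subgroup G} (hVH : zpowers v ≤ H) (hx : x ∈ H) : pre v x ≤ H := by
  intro y hy
  obtain ⟨i, hi⟩ := mem_zpowers_iff.1 (mem_comap.1 hy)
  have h1 : (x ^ i)⁻¹ * y ∈ zpowers v := by
    rw [← QuotientGroup.eq_one_iff]
    show π ((x ^ i)⁻¹ * y) = 1
    rw [map_mul, map_inv, map_zpow, hi, inv_mul_cancel]
  have := mul_mem (zpow_mem hx i) (hVH h1)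
  rwa [mul_inv_cancel_left] at this

omit [Finite G] in
theorem pre_isPGroup (hp : IsPGroup 2 (zpowers v)) {x : G}
    (hx : IsPGroup 2 (zpowers (π x))) : IsPGroup 2 (pre v x) :=
  hx.comap_of_ker_isPGroup _ (by rw [QuotientGroup.ker_mk']; exact hp)

theorem mem_normalizer_pre {a x : G} (h : π a * π x * (π a)⁻¹ ∈ zpowers (π x)) :
    a ∈ normalizer (pre v x : Set G) := by
  refine mem_normalizer_of_conj fun y hy => ?_
  obtain ⟨i, hi⟩ := mem_zpowers_iff.1 (mem_comap.1 hy)
  refine mem_comap.2 ?_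
  rw [map_mul, map_mul, map_inv, ← hi, ← conj_zpow]
  exact zpow_mem h i

omit [Finite G] in
theorem sq_map_one {x : G} (h : x * x ∈ zpowers v) : π x * π x = 1 := by
  rw [← map_mul]; exact (QuotientGroup.eq_one_iff _).2 h

theorem isPGroup_zpowers_of_sq_mem (hp : IsPGroup 2 (zpowers v)) {x : G}
    (h : x * x ∈ zpowers v) : IsPGroup 2 (zpowers x) :=
  (pre_isPGroup hp (isPGroup_zpowers_of_sq (sq_map_one h))).to_le
    (zpowers_le.2 (self_mem_pre x))

omit [Finite G] in
theorem v_le_sylow (hp : IsPGroup 2 (zpowers v)) (S : Sylow 2 G) :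
    zpowers v ≤ (S : Subgroup G) := by
  have h := S.is_maximal' (hp.to_sup_of_normal_left S.isPGroup') le_sup_right
  exact le_sup_left.trans h.le

omit [Finite G] in
theorem exists_zpow_conj (g : G) : ∃ i : ℤ, g * v * g⁻¹ = v ^ i := by
  obtain ⟨i, hi⟩ := mem_zpowers_iff.1 (hV.conj_mem v (mem_zpowers v) g)
  exact ⟨i, hi.symm⟩

omit [Finite G] in
theorem commute_conj {x : G} (hx : Commute x v) (g : G) : Commute (g * x * g⁻¹) v := by
  obtain ⟨i, hi⟩ := exists_zpow_conj (v := v) g⁻¹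
  rw [inv_inv] at hi
  have h : Commute x (g⁻¹ * v * g) := hi ▸ hx.zpow_right i
  have := congrArg (fun t => g * t * g⁻¹) h.eq
  simp only [mul_assoc, mul_inv_cancel_left, mul_inv_cancel, mul_one] at this ⊢
  rw [commute_iff_eq]
  simpa [mul_assoc] using this

theorem commute_of_odd (hp : IsPGroup 2 (zpowers v)) {g : G} (hg : Odd (orderOf g)) :
    Commute g v := by
  have hA := SylowInter.isPGroup_mulAut_of_isCyclic hp
  set φ : G →* MulAut (zpowers v) := MulAut.conjNormal with hφ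
  obtain ⟨k, hk⟩ := hA (φ g)
  have h1 : orderOf (φ g) ∣ 2 ^ k := orderOf_dvd_of_pow_eq_one hk
  have h2 : orderOf (φ g) ∣ orderOf g := orderOf_map_dvd φ g
  have h3 : orderOf (φ g) = 1 :=
    Nat.eq_one_of_dvd_coprimes ((Nat.coprime_two_left.2 hg).pow_left k) h1 h2
  rw [orderOf_eq_one_iff] at h3
  have h4 : ((φ g) ⟨v, mem_zpowers v⟩ : G) = v := by rw [h3]; rfl
  rw [hφ, MulAut.conjNormal_apply] at h4
  exact mul_inv_eq_iff_eq_mul.1 h4

theorem exists_two_part (d : G) :
    ∃ m k : ℕ, Odd m ∧ orderOf (d ^ m) = 2 ^ k ∧ Odd (orderOf (d ^ 2 ^ k)) := by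
  obtain ⟨k, m, hm, hd⟩ := Nat.exists_eq_two_pow_mul_odd (orderOf_pos d).ne'
  refine ⟨m, k, hm, ?_, ?_⟩
  · rw [orderOf_pow' d hm.pos.ne', hd, Nat.gcd_eq_right (dvd_mul_left m _),
      Nat.mul_div_cancel _ hm.pos]
  · rw [orderOf_pow' d (by positivity), hd, Nat.gcd_eq_right (dvd_mul_right _ m),
      Nat.mul_div_cancel_left _ (by positivity)]
    exact hm

theorem commute_of_two_part (hp : IsPGroup 2 (zpowers v)) {d : G} {m k : ℕ} (hm : Odd m)
    (ho : Odd (orderOf (d ^ 2 ^ k))) (h : Commute (d ^ m) v) : Commute d v := by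
  have h1 : d ^ m ∈ centralizer ({v} : Set G) := mem_centralizer_singleton_iff.2 h.eq
  have h2 : d ^ 2 ^ k ∈ centralizer ({v} : Set G) :=
    mem_centralizer_singleton_iff.2 (commute_of_odd hp ho).eq
  have := zpowers_pow_mem ((Nat.coprime_two_right.2 hm).pow_right k) h1 h2
  exact mem_centralizer_singleton_iff.1 this

omit [Finite G] hV in
theorem commute_mem_v {g : G} (hg : Commute g v) {y : G} (hy : y ∈ zpowers v) : Commute g y := by
  obtain ⟨i, rfl⟩ := mem_zpowers_iff.1 hy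
  exact hg.zpow_right i

/-- The even powers of `v`. -/
def even (v : G) : Subgroup G := zpowers (v * v)

omit [Finite G] hV in
theorem even_le : even v ≤ zpowers v :=
  zpowers_le.2 (mul_mem (mem_zpowers v) (mem_zpowers v))

omit [Finite G] hV in
theorem sq_mem_even {u : G} (hu : u ∈ zpowers v) : u * u ∈ even v := by
  obtain ⟨i, rfl⟩ := mem_zpowers_iff.1 hu
  exact mem_zpowers_iff.2 ⟨i, (Commute.refl v).mul_zpow i⟩

omit [Finite G] hV in
theorem even_of_invol (h4 : 4 ∣ orderOf v) {w : G} (hw : w ∈ zpowers v) (hw2 : w * w = 1) :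
    w ∈ even v := by
  obtain ⟨i, rfl⟩ := mem_zpowers_iff.1 hw
  rw [← zpow_add] at hw2
  have h := orderOf_dvd_iff_zpow_eq_one.2 hw2
  have h' : (4 : ℤ) ∣ i + i := (Int.natCast_dvd_natCast.2 h4).trans h
  obtain ⟨j, hj⟩ : (2 : ℤ) ∣ i := by omega
  exact mem_zpowers_iff.2 ⟨j, by rw [(Commute.refl v).mul_zpow, ← zpow_add, hj]; ring_nf⟩

theorem commute_of_not_even (hp : IsPGroup 2 (zpowers v)) {w : G} (hw : w ∈ zpowers v)
    (hwe : w ∉ even v) {b : G} (hb : Commute b w) : Commute b v := by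
  obtain ⟨i, rfl⟩ := mem_zpowers_iff.1 hw
  have hi : ¬ (2 : ℤ) ∣ i := by
    rintro ⟨j, rfl⟩
    exact hwe (mem_zpowers_iff.2 ⟨j, by rw [(Commute.refl v).mul_zpow, ← zpow_add]; ring_nf⟩)
  obtain ⟨n, hn⟩ := IsPGroup.iff_card.1 hp
  rw [Nat.card_zpowers] at hn
  have hco : IsCoprime i (orderOf v : ℤ) := by
    rw [hn]; push_cast
    exact IsCoprime.pow_right ((Int.prime_two.coprime_iff_not_dvd.2 hi).symm)
  obtain ⟨a, c, hac⟩ := hco
  have : v = (v ^ i) ^ a := by
    conv_lhs => rw [← zpow_one v, ← hac, zpow_add, mul_comm c, zpow_mul v (orderOf v : ℤ),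
      zpow_natCast, pow_orderOf_eq_one, one_zpow, mul_one, mul_comm a, zpow_mul]
  rw [this]
  exact hb.zpow_right a

/-- An involution centralising `v` outside `⟨v⟩`. -/
def Split (v a : G) : Prop := Commute a v ∧ a * a = 1 ∧ a ∉ zpowers v

omit [Finite G] in
theorem Split.conj {a : G} (ha : Split v a) (g : G) : Split v (g * a * g⁻¹) := by
  refine ⟨commute_conj ha.1 g, ?_, fun h => ha.2.2 ?_⟩
  · rw [conj_mul, ha.2.1, mul_one, mul_inv_cancel]
  · have := hV.conj_mem _ h g⁻¹
    simpa [mul_assoc] using this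

omit [Finite G] in
theorem Split.sq_mem {a : G} (ha : Split v a) : a * a ∈ zpowers v := by
  rw [ha.2.1]; exact one_mem _

theorem Split.nc (hp : IsPGroup 2 (zpowers v)) (hv : v ≠ 1) {a : G} (ha : Split v a) :
    ¬ IsCyclic (pre v a) := by
  have hdvd : 2 ∣ orderOf v := by
    obtain ⟨n, hn⟩ := IsPGroup.iff_card.1 hp
    rw [Nat.card_zpowers] at hn
    rcases n with _ | n
    · exact absurd (orderOf_eq_one_iff.1 (by simpa using hn)) hv
    · exact hn ▸ dvd_pow_self 2 (Nat.succ_ne_zero n)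
  set z := v ^ (orderOf v / 2) with hz
  have hzV : z ∈ zpowers v := pow_mem (mem_zpowers v) _
  have hzo : orderOf z = 2 := orderOf_pow_orderOf_div (orderOf_pos v).ne' hdvd
  refine not_isCyclic_of_two (v_le_pre a hzV) (self_mem_pre a) ?_ ?_ ?_ ha.2.1 ?_
  · intro h; rw [h, orderOf_one] at hzo; omega
  · intro h; exact ha.2.2 (h ▸ one_mem _)
  · rw [← pow_two, ← hzo]; exact pow_orderOf_eq_one z
  · intro h; exact ha.2.2 (h ▸ hzV)

omit [Finite G] in
theorem exists_split_of_sq_even {c : G} (hc : Commute c v) (hcV : c ∉ zpowers v)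
    (hcc : c * c ∈ even v) : ∃ a, Split v a ∧ π a = π c ∧ (∀ x, Commute x c → Commute x v → Commute x a) := by
  obtain ⟨j, hj⟩ := mem_zpowers_iff.1 hcc
  refine ⟨c * v ^ (-j), ⟨hc.mul_left (Commute.refl v |>.zpow_left _), ?_, ?_⟩, ?_, ?_⟩
  · rw [(hc.zpow_right (-j)).symm.mul_mul_mul_comm, ← hj, ← (Commute.refl v).mul_zpow,
      ← zpow_add, add_neg_cancel, zpow_zero]
  · intro h
    have := mul_mem h (zpow_mem (mem_zpowers v) j)
    rw [mul_assoc, ← zpow_add, neg_add_cancel, zpow_zero, mul_one] at this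
    exact hcV this
  · rw [map_mul, show π (v ^ (-j)) = 1 from (QuotientGroup.eq_one_iff _).2 (zpow_mem (mem_zpowers v) _),
      mul_one]
  · exact fun x h1 h2 => h1.mul_right (h2.zpow_right _)

theorem pre_le_sylow (hp : IsPGroup 2 (zpowers v)) {x : G} {S : Sylow 2 G} (hx : x ∈ S) :
    pre v x ≤ (S : Subgroup G) :=
  pre_le (v_le_sylow hp S) hx

theorem exists_split_mem (hp : IsPGroup 2 (zpowers v)) {a : G} (ha : Split v a)
    (S : Sylow 2 G) : ∃ g : G, g * a * g⁻¹ ∈ S := by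
  have : Fact (Nat.Prime 2) := ⟨Nat.prime_two⟩
  obtain ⟨T, hT⟩ := (isPGroup_zpowers_of_sq_mem hp ha.sq_mem).exists_le_sylow
  obtain ⟨g, hg⟩ := MulAction.exists_smul_eq G T S
  exact ⟨g, hg ▸ conj_mem_smul g (hT (mem_zpowers a))⟩

/-- An element outside `C(v)` squaring into `⟨v⟩` lies in the Sylow subgroup of each split
element. -/
theorem outer_mem (hC : CycInt G) (hp : IsPGroup 2 (zpowers v)) (hv : v ≠ 1) {a : G}
    (ha : Split v a) {b : G} (hbb : b * b ∈ zpowers v) (hb : ¬ Commute b v) {S : Sylow 2 G}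
    (haS : a ∈ S) : b ∈ S := by
  have : Fact (Nat.Prime 2) := ⟨Nat.prime_two⟩
  set d := a * b with hd
  have hdv : ¬ Commute d v := fun h => hb (by
    have h2 := (ha.1.mul_left h)
    rwa [hd, ← mul_assoc, ha.2.1, one_mul] at h2)
  obtain ⟨m, k, hm, hord, ho⟩ := exists_two_part d
  have hxv : ¬ Commute (d ^ m) v := fun h => hdv (commute_of_two_part hp hm ho h)
  have hx2 : IsPGroup 2 (zpowers (d ^ m)) := IsPGroup.of_card (n := k) (by rw [Nat.card_zpowers, hord])
  have hY2 : IsPGroup 2 (pre v (d ^ m)) := pre_isPGroup hp (by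
    rw [← MonoidHom.map_zpowers]; exact hx2.map _)
  have hYnc : ¬ IsCyclic (pre v (d ^ m)) :=
    not_isCyclic_of_noncomm (self_mem_pre _) (v_le_pre _ (mem_zpowers v)) hxv
  have hA : π a * π a = 1 := sq_map_one ha.sq_mem
  have hB : π b * π b = 1 := sq_map_one hbb
  have hA' : (π a)⁻¹ = π a := inv_eq_of_mul_eq_one_right hA
  have hB' : (π b)⁻¹ = π b := inv_eq_of_mul_eq_one_right hB
  have hD : (π d)⁻¹ = π b * π a := by rw [hd, map_mul, mul_inv_rev, hA', hB']
  have hna : a ∈ normalizer (pre v (d ^ m) : Set G) := by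
    refine mem_normalizer_pre ?_
    have : π a * π d * (π a)⁻¹ = (π d)⁻¹ := by
      rw [hD, hA', hd, map_mul, ← mul_assoc (π a) (π a), hA, one_mul]
    rw [map_pow, ← conj_pow, this, inv_pow]
    exact inv_mem (mem_zpowers _)
  have hnb : b ∈ normalizer (pre v (d ^ m) : Set G) := by
    refine mem_normalizer_pre ?_
    have : π b * π d * (π b)⁻¹ = (π d)⁻¹ := by
      rw [hD, hB', hd, map_mul, mul_assoc, mul_assoc, hB, mul_one]
    rw [map_pow, ← conj_pow, this, inv_pow]
    exact inv_mem (mem_zpowers _)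
  obtain ⟨T, hT⟩ := hY2.exists_le_sylow
  have haT := mem_of_normalizes hC hYnc hT (isPGroup_zpowers_of_sq_mem hp ha.sq_mem) hna
  have hbT := mem_of_normalizes hC hYnc hT (isPGroup_zpowers_of_sq_mem hp hbb) hnb
  rwa [sylow_eq hC (ha.nc hp hv) (pre_le_sylow hp haS) (pre_le_sylow hp haT)]

theorem no_outer (hC : CycInt G) (hp : IsPGroup 2 (zpowers v)) (hv : v ≠ 1)
    (hn : ∃ S T : Sylow 2 G, S ≠ T) {a : G} (ha : Split v a) {b : G}
    (hbb : b * b ∈ zpowers v) : Commute b v := by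
  by_contra hb
  obtain ⟨S, T, hST⟩ := hn
  obtain ⟨g, hg⟩ := exists_split_mem hp ha S
  obtain ⟨h, hh⟩ := exists_split_mem hp ha T
  exact hST (sylow_eq hC
    (not_isCyclic_of_noncomm (self_mem_pre b) (v_le_pre _ (mem_zpowers v)) hb)
    (pre_le_sylow hp (outer_mem hC hp hv (ha.conj g) hbb hb hg))
    (pre_le_sylow hp (outer_mem hC hp hv (ha.conj h) hbb hb hh)))

omit [Finite G] hV in
theorem dihedral_conj {H : Type*} [Group H] {A B : H} (hA : A * A = 1) (hB : B * B = 1) (k : ℤ) :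
    (A * B) ^ k * B * ((A * B) ^ k)⁻¹ = A * (A * B) ^ (1 - 2 * k) := by
  have hA' : A⁻¹ = A := inv_eq_of_mul_eq_one_right hA
  have hconj : A * (A * B) ^ k * A⁻¹ = (A * B) ^ (-k) := by
    rw [← conj_zpow, zpow_neg, ← inv_zpow, mul_inv_rev, hA', inv_eq_of_mul_eq_one_right hB,
      ← mul_assoc A A, hA, one_mul]
  have h1 : (A * B) ^ k * A = A * (A * B) ^ (-k) := by
    rw [← hconj, hA', ← mul_assoc, ← mul_assoc, hA, one_mul]
  calc (A * B) ^ k * B * ((A * B) ^ k)⁻¹
      = (A * B) ^ k * A * ((A * B) * (A * B) ^ (-k)) := by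
        rw [zpow_neg]; simp only [← mul_assoc]; rw [mul_assoc ((A * B) ^ k) A A, hA, mul_one]
    _ = A * ((A * B) ^ (-k) * ((A * B) * (A * B) ^ (-k))) := by rw [h1, mul_assoc]
    _ = _ := by rw [← zpow_one_add, ← zpow_add]; ring_nf

/-- Split elements in different Sylow subgroups are conjugate modulo `⟨v⟩`. -/
theorem split_conj (hC : CycInt G) (hp : IsPGroup 2 (zpowers v)) (h4 : 4 ∣ orderOf v)
    {a a' : G} (ha : Split v a) (ha' : Split v a') {S : Sylow 2 G} (haS : a ∈ S) (ha'S : a' ∉ S) :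
    ∃ g : G, π (g * a' * g⁻¹) = π a := by
  have hv : v ≠ 1 := by
    rintro rfl; rw [orderOf_one] at h4; omega
  have hA : π a * π a = 1 := sq_map_one ha.sq_mem
  have hB : π a' * π a' = 1 := sq_map_one ha'.sq_mem
  have key : ∀ k : ℤ, π ((a * a') ^ k * a' * ((a * a') ^ k)⁻¹) =
      π a * π (a * a') ^ (1 - 2 * k) := fun k => by
    rw [map_mul, map_mul, map_inv, map_zpow, map_mul]; exact dihedral_conj hA hB k
  obtain ⟨n, hn⟩ : ∃ n, orderOf (π (a * a')) = n := ⟨_, rfl⟩
  rcases Nat.even_or_odd n with hev | hod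
  swap
  · obtain ⟨j, hj⟩ := hod
    refine ⟨_, (key (j + 1)).trans ?_⟩
    rw [show (1 : ℤ) - 2 * (j + 1) = -((orderOf (π (a * a')) : ℕ) : ℤ) by rw [hn, hj]; push_cast; ring,
      zpow_neg, zpow_natCast, pow_orderOf_eq_one, inv_one, mul_one]
  obtain ⟨h, hh⟩ := hev
  have hnpos : 0 < n := hn ▸ orderOf_pos _
  have hdv : Commute (a * a') v := ha.1.mul_left ha'.1
  set c := (a * a') ^ h with hcdef
  have hcv : Commute c v := hdv.pow_left h
  have hC1 : π c ≠ 1 := by
    rw [hcdef, map_pow]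
    exact pow_ne_one_of_lt_orderOf (by omega) (by omega)
  have hcV : c ∉ zpowers v := fun hc => hC1 ((QuotientGroup.eq_one_iff _).2 hc)
  have hC2 : π c * π c = 1 := by
    rw [hcdef, map_pow, ← pow_add, ← hh, ← hn, pow_orderOf_eq_one]
  have hA' : (π a)⁻¹ = π a := inv_eq_of_mul_eq_one_right hA
  have hB' : (π a')⁻¹ = π a' := inv_eq_of_mul_eq_one_right hB
  have hinvA : ∀ r : ℕ, π a * π (a * a') ^ r * (π a)⁻¹ = (π (a * a') ^ r)⁻¹ := fun r => by
    rw [← conj_pow, ← inv_pow, map_mul, mul_inv_rev, hA', hB', ← mul_assoc (π a) (π a), hA, one_mul]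
  have hinvB : ∀ r : ℕ, π a' * π (a * a') ^ r * (π a')⁻¹ = (π (a * a') ^ r)⁻¹ := fun r => by
    rw [← conj_pow, ← inv_pow, map_mul, mul_inv_rev, hA', hB', mul_assoc (π a') _ (π a'),
      mul_assoc (π a) (π a'), hB, mul_one]
  have hcac : π a * π c * (π a)⁻¹ = π c := by
    rw [hcdef, map_pow, hinvA]; exact inv_eq_of_mul_eq_one_right (by rw [← map_pow]; exact hC2)
  have hcbc : π a' * π c * (π a')⁻¹ = π c := by
    rw [hcdef, map_pow, hinvB]; exact inv_eq_of_mul_eq_one_right (by rw [← map_pow]; exact hC2)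
  have hccV : c * c ∈ zpowers v := by
    rw [← QuotientGroup.eq_one_iff]; show π (c * c) = 1; rw [map_mul]; exact hC2
  -- `c` has no split representative
  have hne : c * c ∉ even v := by
    intro hcc
    obtain ⟨s, hs, hsc, -⟩ := exists_split_of_sq_even hcv hcV hcc
    obtain ⟨T, hT⟩ := (pre_isPGroup hp (isPGroup_zpowers_of_sq (sq_map_one hs.sq_mem))).exists_le_sylow
    have hnT : ∀ x, Split v x → π x * π c * (π x)⁻¹ = π c → x ∈ T := fun x hx hxc =>
      mem_of_normalizes hC (hs.nc hp hv) hT (isPGroup_zpowers_of_sq_mem hp hx.sq_mem)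
        (mem_normalizer_pre (by rw [hsc, hxc]; exact mem_zpowers _))
    have hTS := sylow_eq hC (ha.nc hp hv) (pre_le_sylow hp haS)
      (pre_le_sylow hp (hnT a ha hcac))
    exact ha'S (hTS ▸ hnT a' ha' hcbc)
  -- `w` is the commutator of `a` and `c`
  obtain ⟨w, hwdef⟩ : ∃ w, w = c⁻¹ * (a * c * a⁻¹) := ⟨_, rfl⟩
  have hwV : w ∈ zpowers v := by
    rw [← QuotientGroup.eq_one_iff]
    show π w = 1
    rw [hwdef, map_mul, map_inv, map_mul, map_mul, map_inv, hcac, inv_mul_cancel]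
  have hacw : a * c * a⁻¹ = c * w := by rw [hwdef, mul_inv_cancel_left]
  have hcw : Commute c w := commute_mem_v hcv hwV
  have hw2 : w * w = 1 := by
    have h1 : (a * c * a⁻¹) * (a * c * a⁻¹) = c * c := by
      rw [conj_mul, (commute_mem_v ha.1 hccV).eq, mul_inv_cancel_right]
    rw [hacw, hcw.symm.mul_mul_mul_comm] at h1
    exact mul_eq_left.1 h1
  have hwE := even_of_invol h4 hwV hw2
  rcases Nat.even_or_odd h with ⟨q, hq⟩ | hodd
  · exfalso
    obtain ⟨q', hq'def⟩ : ∃ q', q' = (a * a') ^ q := ⟨_, rfl⟩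
    obtain ⟨u, hu⟩ : ∃ u, u = q' * (a * q' * a⁻¹) := ⟨_, rfl⟩
    have hcq : c = q' * q' := by rw [hcdef, hq'def, ← pow_add, hq]
    have huV : u ∈ zpowers v := by
      rw [← QuotientGroup.eq_one_iff]
      show π u = 1
      rw [hu, hq'def, map_mul, map_mul, map_mul, map_inv, map_pow, hinvA, mul_inv_cancel]
    have haq : a * q' * a⁻¹ = q'⁻¹ * u := by rw [hu, inv_mul_cancel_left]
    have hq'u : Commute q'⁻¹ u := (commute_mem_v (hq'def ▸ hdv.pow_left q) huV).inv_left
    have h1 : c * w = c⁻¹ * (u * u) := by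
      rw [← hacw, hcq, ← conj_mul, haq, hq'u.symm.mul_mul_mul_comm, mul_inv_rev]
    apply hne
    have h2 : c * c = u * u * w⁻¹ := by
      have h3 : c * c * w = u * u := by rw [mul_assoc, h1, mul_inv_cancel_left]
      rw [← h3, mul_inv_cancel_right]
    rw [h2]
    exact mul_mem (sq_mem_even huV) (inv_mem hwE)
  · obtain ⟨j, hj⟩ := hodd
    exfalso
    obtain ⟨g, hg⟩ : ∃ g, π (g * a' * g⁻¹) = π a * π c := by
      refine ⟨_, (key (-(j : ℤ))).trans ?_⟩
      rw [hcdef, map_pow, ← zpow_natCast (π (a * a')) h, hj]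
      push_cast; ring_nf
    obtain ⟨u, hu⟩ : ∃ u, u = (a * c)⁻¹ * (g * a' * g⁻¹) := ⟨_, rfl⟩
    have huV : u ∈ zpowers v := by
      rw [← QuotientGroup.eq_one_iff]
      show π u = 1
      rw [hu, map_mul, map_inv, map_mul, hg, inv_mul_cancel]
    have heq : g * a' * g⁻¹ = a * c * u := by rw [hu, mul_inv_cancel_left]
    have h1 : (a * c * u) * (a * c * u) = 1 := by rw [← heq]; exact (ha'.conj g).2.1
    rw [(commute_mem_v (ha.1.mul_left hcv) huV).symm.mul_mul_mul_comm] at h1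
    have h2 : a * c * (a * c) = c * w * c := by
      rw [← mul_assoc, ← hacw, inv_eq_of_mul_eq_one_right ha.2.1]
    rw [h2, mul_assoc c w c, ← hcw.eq, ← mul_assoc c c w] at h1
    apply hne
    have h3 : c * c = (w * (u * u))⁻¹ := eq_inv_of_mul_eq_one_left (by rw [← mul_assoc]; exact h1)
    rw [h3]
    exact inv_mem (mul_mem hwE (sq_mem_even huV))

theorem exists_normalizer_conj (hC : CycInt G) (hp : IsPGroup 2 (zpowers v))
    (h4 : 4 ∣ orderOf v) (hn : ∃ S T : Sylow 2 G, S ≠ T) {a a' : G} (ha : Split v a)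
    (ha' : Split v a') {S : Sylow 2 G} (haS : a ∈ S) (ha'S : a' ∈ S) :
    ∃ g ∈ normalizer ((S : Subgroup G) : Set G), π (g * a * g⁻¹) = π a' := by
  have : Fact (Nat.Prime 2) := ⟨Nat.prime_two⟩
  have hv : v ≠ 1 := by rintro rfl; rw [orderOf_one] at h4; omega
  obtain ⟨T, hT⟩ : ∃ T : Sylow 2 G, T ≠ S := by
    obtain ⟨P, Q, hPQ⟩ := hn
    by_contra h
    push Not at h
    exact hPQ ((h P).trans (h Q).symm)
  obtain ⟨h, hh⟩ := MulAction.exists_smul_eq G S T
  have h2 : h * a * h⁻¹ ∉ S := fun hmem => hT (sylow_eq hC ((ha.conj h).nc hp hv)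
    (pre_le_sylow hp (hh ▸ conj_mem_smul h haS)) (pre_le_sylow hp hmem))
  obtain ⟨g1, hg1⟩ := split_conj hC hp h4 ha' (ha.conj h) ha'S h2
  have hre : g1 * h * a * (g1 * h)⁻¹ = g1 * (h * a * h⁻¹) * g1⁻¹ := by group
  refine ⟨g1 * h, ?_, by rw [hre]; exact hg1⟩
  have hmem : g1 * h * a * (g1 * h)⁻¹ ∈ S := by
    refine pre_le_sylow hp ha'S (mem_comap.2 ?_)
    rw [hre, hg1]; exact mem_zpowers _
  exact Sylow.smul_eq_iff_mem_normalizer.1 <| sylow_eq hC ((ha.conj (g1 * h)).nc hp hv)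
    (pre_le_sylow hp (conj_mem_smul (g1 * h) haS)) (pre_le_sylow hp hmem)

end Normal

/-- In a 2-group, an involution whose commuting distinct conjugates multiply with it to another
conjugate is central. -/
theorem mem_center_of_conj_product {P : Type*} [Group P] [Finite P] (hP : IsPGroup 2 P) {x : P}
    (hx : x * x = 1)
    (h : ∀ s : P, Commute x (s * x * s⁻¹) → s * x * s⁻¹ ≠ x →
      ∃ t : P, t * x * t⁻¹ = x * (s * x * s⁻¹)) : x ∈ center P := by
  have : Fact (Nat.Prime 2) := ⟨Nat.prime_two⟩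
  by_contra hxc
  have hnil : Group.IsNilpotent P := hP.isNilpotent
  set C := centralizer ({x} : Set P) with hCdef
  have hCtop : C ≠ ⊤ := by
    intro hC
    exact hxc (mem_center_iff.2 fun g =>
      mem_centralizer_singleton_iff.1 (show g ∈ C from hC ▸ mem_top g))
  obtain ⟨s, hsN, hsC⟩ := SetLike.exists_of_lt
    (Group.normalizerCondition_of_isNilpotent C (lt_top_iff_ne_top.2 hCtop))
  have hxC : x ∈ C := mem_centralizer_singleton_iff.2 rfl
  have hy : s * x * s⁻¹ ∈ C := (mem_normalizer_iff.1 hsN x).1 hxC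
  have hyne : s * x * s⁻¹ ≠ x := fun he =>
    hsC (mem_centralizer_singleton_iff.2 (mul_inv_eq_iff_eq_mul.1 he))
  obtain ⟨t, ht⟩ := h s (show Commute x (s * x * s⁻¹) from (mem_centralizer_singleton_iff.1 hy).symm)
    hyne
  have hx1 : x ≠ 1 := fun h1 => hxc (h1 ▸ one_mem _)
  let 𝒩 : Set (Subgroup P) := {N | N.Normal ∧ x ∉ N}
  obtain ⟨N, ⟨⟨hNn, hxN⟩, hmax⟩⟩ := (Set.toFinite 𝒩).exists_maximal
    ⟨⊥, Subgroup.normal_bot, by simpa using hx1⟩
  have : Nontrivial (P ⧸ N) := by
    refine ⟨⟨(x : P ⧸ N), 1, fun h1 => hxN ((QuotientGroup.eq_one_iff x).1 h1)⟩⟩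
  have := (hP.to_quotient N).center_nontrivial
  set M := (center (P ⧸ N)).comap (QuotientGroup.mk' N) with hM
  have hxM : x ∈ M := by
    by_contra hxM
    have hle : N ≤ M := fun y hy => by
      rw [hM, mem_comap, QuotientGroup.mk'_apply, (QuotientGroup.eq_one_iff y).2 hy]
      exact one_mem _
    have hMN : M ≤ N := hmax (y := M) ⟨inferInstance, hxM⟩ hle
    obtain ⟨⟨z, hz⟩, hz1⟩ := exists_ne (1 : center (P ⧸ N))
    obtain ⟨y, rfl⟩ := QuotientGroup.mk'_surjective N z
    exact hz1 (Subtype.ext ((QuotientGroup.eq_one_iff y).2 (hMN hz)))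
  have hc : ∀ r : P, QuotientGroup.mk' N (r * x * r⁻¹) = QuotientGroup.mk' N x := fun r => by
    rw [map_mul, map_mul, map_inv, mem_center_iff.1 (mem_comap.1 hxM), mul_inv_cancel_right]
  apply hxN
  rw [← QuotientGroup.eq_one_iff]
  show QuotientGroup.mk' N x = 1
  rw [← hc t, ht, map_mul, hc s, ← map_mul, hx, map_one]

theorem center_sq_quaternion {m : ℕ} (hm : 2 ≤ m) {q : QuaternionGroup m}
    (hq : ∀ g, Commute g q) : q * q = 1 := by
  open QuaternionGroup in
  cases q with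
  | a i =>
    have h := (hq (xa 0)).eq
    rw [xa_mul_a, a_mul_xa, zero_add, zero_sub, QuaternionGroup.xa.injEq] at h
    rw [a_mul_a, one_def]
    congr 1
    linear_combination h
  | xa i =>
    exfalso
    have h := (hq (a 1)).eq
    rw [a_mul_xa, xa_mul_a, QuaternionGroup.xa.injEq] at h
    have h2 : ((2 : ℕ) : ZMod (2 * m)) = 0 := by push_cast; linear_combination -h
    rw [ZMod.natCast_eq_zero_iff] at h2
    have := Nat.le_of_dvd two_pos h2
    omega

/-- Existence of a split element in a nonsolvable group. -/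
theorem exists_split (hFT : ∀ (H : Type u) [Group H] [Finite H], Odd (Nat.card H) → Group.IsSolvable H)
    (hns : ¬ Group.IsSolvable G) {v : G} [hV : (zpowers v).Normal]
    (hp : IsPGroup 2 (zpowers v)) (h4 : 4 ∣ orderOf v) : ∃ a, Split v a := by
  have : Fact (Nat.Prime 2) := ⟨Nat.prime_two⟩
  by_contra hno
  push Not at hno
  set C := centralizer ({v} : Set G) with hCdef
  have hvC : v ∈ C := mem_centralizer_singleton_iff.2 rfl
  set v' : C := ⟨v, hvC⟩
  have hv'c : ∀ g : C, Commute g v' := fun g =>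
    Subtype.ext (mem_centralizer_singleton_iff.1 g.2)
  obtain ⟨n, hn⟩ := IsPGroup.iff_card.1 hp
  rw [Nat.card_zpowers] at hn
  have hV'n : (zpowers v').Normal := ⟨fun y hy g => by
    obtain ⟨i, rfl⟩ := mem_zpowers_iff.1 hy
    rw [((hv'c g).zpow_right i).eq, mul_inv_cancel_right]
    exact zpow_mem (mem_zpowers v') i⟩
  have hv'p : IsPGroup 2 (zpowers v') :=
    IsPGroup.of_card (n := n) (by rw [Nat.card_zpowers, Subgroup.orderOf_mk, hn])
  obtain ⟨P⟩ : Nonempty (Sylow 2 C) := inferInstance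
  have hvP : v' ∈ P := v_le_sylow (v := v') hv'p P (mem_zpowers v')
  have huniq : ∀ x y : P, orderOf x = 2 → orderOf y = 2 → x = y := by
    intro x y hx hy
    have key : ∀ x : P, orderOf x = 2 → (x.1.1 : G) ∈ zpowers v ∧ x.1.1 * x.1.1 = 1 ∧ x.1.1 ≠ 1 := by
      intro x hx
      have hx2 : (x.1.1 : G) * x.1.1 = 1 := by
        have := pow_orderOf_eq_one x
        rw [hx, pow_two] at this
        exact congrArg (fun z : P => (z.1.1 : G)) this
      refine ⟨?_, hx2, fun h1 => ?_⟩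
      · by_contra hxV
        exact hno _ ⟨mem_centralizer_singleton_iff.1 x.1.2, hx2, hxV⟩
      · have : x = 1 := Subtype.ext (Subtype.ext h1)
        rw [this, orderOf_one] at hx
        omega
    obtain ⟨a1, a2, a3⟩ := key x hx
    obtain ⟨b1, b2, b3⟩ := key y hy
    by_contra hne
    exact not_isCyclic_of_two a1 b1 a3 b3 a2 b2 (fun h => hne (Subtype.ext (Subtype.ext h)))
      inferInstance
  have hcyc : IsCyclic P := by
    rcases TwoGroups.cyclic_or_quaternion_of_unique_involution P.isPGroup' huniq with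
      hc | ⟨k, hk, -, ⟨e⟩⟩
    · exact hc
    exfalso
    have h2k : 2 ≤ 2 ^ (k - 1) := by
      calc 2 = 2 ^ 1 := rfl
        _ ≤ _ := Nat.pow_le_pow_right two_pos (by omega)
    have hcen : ∀ g, Commute g (e ⟨v', hvP⟩) := fun g => by
      obtain ⟨g, rfl⟩ := e.surjective g
      exact (show Commute g ⟨v', hvP⟩ from Subtype.ext (hv'c g.1).eq).map e
    have h1 := center_sq_quaternion h2k hcen
    rw [← map_mul, MulEquiv.map_eq_one_iff] at h1
    have h2 : v ^ 2 = 1 := by rw [pow_two]; exact congrArg (fun z : P => (z.1.1 : G)) h1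
    have := h4.trans (orderOf_dvd_of_pow_eq_one h2)
    omega
  -- `C` has a normal 2-complement
  have hdvd : 2 ∣ Nat.card C := by
    have h1 := orderOf_dvd_natCard v'
    rw [Subgroup.orderOf_mk] at h1
    exact ((dvd_trans (by norm_num) h4).trans h1)
  have hle := IsCyclic.normalizer_le_centralizer (G := C) ((Nat.minFac_eq_two_iff _).2 hdvd) hcyc
  set K := (MonoidHom.transferSylow P hle).ker with hK
  have hKodd : Odd (Nat.card K) := by
    rw [← Nat.not_even_iff_odd, even_iff_two_dvd]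
    exact MonoidHom.not_dvd_card_ker_transferSylow P hle
  have hKs : Group.IsSolvable K := hFT K hKodd
  have hPs : Group.IsSolvable P := Group.isSolvable_of_comm fun a b => by
    obtain ⟨g, hg⟩ := hcyc.exists_generator
    obtain ⟨i, rfl⟩ := mem_zpowers_iff.1 (hg a)
    obtain ⟨j, rfl⟩ := mem_zpowers_iff.1 (hg b)
    exact ((Commute.refl g).zpow_zpow i j).eq
  have hCs : Group.IsSolvable C :=
    Group.isSolvable_of_ker_le_range K.subtype (MonoidHom.transferSylow P hle)
      (by rw [Subgroup.range_subtype])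
  have hAs : Group.IsSolvable (MulAut (zpowers v)) := Group.isSolvable_of_comm fun a b => by
    apply (IsCyclic.mulAutMulEquiv (zpowers v)).injective
    rw [map_mul, map_mul, mul_comm]
  apply hns
  refine Group.isSolvable_of_ker_le_range C.subtype
    (MulAut.conjNormal : G →* MulAut (zpowers v)) fun g hg => ?_
  rw [Subgroup.range_subtype]
  have h1 : ((MulAut.conjNormal g : MulAut (zpowers v)) ⟨v, mem_zpowers v⟩ : G) = v := by
    rw [MonoidHom.mem_ker.1 hg]; rfl
  rw [MulAut.conjNormal_apply] at h1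
  exact mem_centralizer_singleton_iff.2 (mul_inv_eq_iff_eq_mul.1 h1)

section Central

variable {v : G} [hV : (zpowers v).Normal]

local notation "π" => QuotientGroup.mk' (zpowers v)

/-- Normal cyclic 2-subgroups are central. -/
theorem central (hFT : ∀ (H : Type u) [Group H] [Finite H], Odd (Nat.card H) → Group.IsSolvable H)
    (hns : ¬ Group.IsSolvable G) (hO : Cfsg.pPrimeCore 2 G = ⊥) (hC : CycInt G)
    (hn : ∃ S T : Sylow 2 G, S ≠ T) (hp : IsPGroup 2 (zpowers v)) : v ∈ center G := by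
  have : Fact (Nat.Prime 2) := ⟨Nat.prime_two⟩
  by_contra hvc
  obtain ⟨g0, hg0⟩ : ∃ g, ¬ Commute g v := by
    by_contra h
    push Not at h
    exact hvc (mem_center_iff.2 fun g => (h g).eq)
  -- the order of `v` is divisible by 4
  have h4 : 4 ∣ orderOf v := by
    obtain ⟨n, hn⟩ := IsPGroup.iff_card.1 hp
    rw [Nat.card_zpowers] at hn
    rcases n with _ | _ | n
    · exact absurd (orderOf_eq_one_iff.1 (by simpa using hn) ▸ Commute.one_right g0) hg0
    · exfalso
      obtain ⟨i, hi⟩ := exists_zpow_conj (v := v) g0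
      rw [← zpow_mod_orderOf, hn] at hi
      push_cast at hi
      norm_num at hi
      rcases Int.emod_two_eq_zero_or_one i with h | h <;> rw [h] at hi
      · rw [zpow_zero, conj_eq_one_iff] at hi
        rw [hi, orderOf_one] at hn
        norm_num at hn
      · rw [zpow_one] at hi
        exact hg0 (mul_inv_eq_iff_eq_mul.1 hi)
    · exact hn ▸ ⟨2 ^ n, by ring⟩
  have hv : v ≠ 1 := fun h => hg0 (h ▸ Commute.one_right g0)
  obtain ⟨a0, ha0⟩ := exists_split hFT hns hp h4
  obtain ⟨S⟩ : Nonempty (Sylow 2 G) := inferInstance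
  have hVS := v_le_sylow hp S
  -- `S` does not centralise `v`
  obtain ⟨b1, hb1S, hb1⟩ : ∃ b ∈ S, ¬ Commute b v := by
    by_contra hall
    push Not at hall
    apply hg0
    obtain ⟨m, k, hm, hord, ho⟩ := exists_two_part g0
    refine commute_of_two_part hp hm ho ?_
    obtain ⟨T, hT⟩ := (IsPGroup.of_card (n := k) (by rw [Nat.card_zpowers, hord]) :
      IsPGroup 2 (zpowers (g0 ^ m))).exists_le_sylow
    obtain ⟨g, hg⟩ := MulAction.exists_smul_eq G T S
    have := commute_conj (hall _ (hg ▸ conj_mem_smul g (hT (mem_zpowers _)))) g⁻¹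
    simpa [mul_assoc] using this
  -- a complement `L` of `S` in its normaliser
  set NS := normalizer ((S : Subgroup G) : Set G) with hNS
  set S' := (S : Subgroup G).subgroupOf NS with hS'
  have hSN : (S : Subgroup G) ≤ NS := le_normalizer
  have hS'n : S'.Normal := normal_in_normalizer
  have hcS' : Nat.card S' = Nat.card S := Nat.card_congr (subgroupOfEquivOfLe hSN).toEquiv
  obtain ⟨kS, hkS⟩ := IsPGroup.iff_card.1 S.isPGroup'
  have hidx : ¬ 2 ∣ S'.index := by
    intro h
    apply S.not_dvd_index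
    refine h.trans ?_
    show (S : Subgroup G).relIndex NS ∣ _
    rw [← relIndex_mul_index hSN]
    exact dvd_mul_right _ _
  have hcop : Nat.Coprime (Nat.card S') S'.index := by
    rw [hcS', hkS]
    exact ((Nat.prime_two.coprime_iff_not_dvd).2 hidx).pow_left kS
  obtain ⟨L', hL'⟩ := exists_right_complement'_of_coprime hcop
  set L := L'.map NS.subtype with hL
  have hLodd : Odd (Nat.card L) := by
    rw [hL, Nat.card_congr (L'.equivMapOfInjective _ NS.subtype_injective).toEquiv.symm,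
      ← hL'.symm.index_eq_card, ← Nat.not_even_iff_odd, even_iff_two_dvd]
    exact hidx
  have hLv : ∀ l ∈ L, Commute l v := fun l hl =>
    commute_of_odd hp (hLodd.of_dvd_nat (Subgroup.orderOf_dvd_natCard L hl))
  have hLN : L ≤ NS := by rw [hL]; exact map_subtype_le _
  have hcopL : (Nat.card L).Coprime (Nat.card S) := by
    rw [hkS]; exact ((Nat.coprime_two_left.2 hLodd).pow_left kS).symm
  have hsupL := Coprime.commutator_sup_centralizer hLN hcopL
    (Or.inr (haveI := S.isPGroup'.isNilpotent; inferInstance))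
  -- an element `b` outside `C(v)` centralising `L`
  obtain ⟨b, hbS, hbL, hb⟩ : ∃ b ∈ S, b ∈ centralizer (L : Set G) ∧ ¬ Commute b v := by
    by_contra hall
    push Not at hall
    apply hb1
    have hle : ⁅(S : Subgroup G), L⁆ ⊔ (S : Subgroup G) ⊓ centralizer (L : Set G) ≤
        centralizer ({v} : Set G) := by
      refine sup_le ?_ ?_
      · rw [Subgroup.commutator_le]
        intro s _ l hl
        refine mem_centralizer_singleton_iff.2 ?_
        rw [commutatorElement_def]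
        exact ((commute_conj (hLv l hl) s).mul_left (hLv l hl).inv_left).eq
      · exact fun x hx => mem_centralizer_singleton_iff.2 (hall x hx.1 hx.2).eq
    exact mem_centralizer_singleton_iff.1 (hle (hsupL.ge hb1S))
  -- the split element `c` among its powers
  obtain ⟨kb, hkb⟩ := S.isPGroup' ⟨b, hbS⟩
  have hkb' : b ^ 2 ^ kb ∈ zpowers v := by
    have : b ^ 2 ^ kb = 1 := congrArg Subtype.val hkb
    rw [this]; exact one_mem _
  have hex : ∃ i, b ^ 2 ^ i ∈ zpowers v := ⟨kb, hkb'⟩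
  have hj0 : Nat.find hex ≠ 0 := by
    intro h0
    have := Nat.find_spec hex
    rw [h0, pow_zero, pow_one] at this
    exact hb (commute_mem_v (Commute.refl v) this).symm
  obtain ⟨j, hj⟩ := Nat.exists_eq_succ_of_ne_zero hj0
  have hjn : b ^ 2 ^ j ∉ zpowers v := Nat.find_min hex (by omega)
  have hjs : b ^ 2 ^ j * b ^ 2 ^ j ∈ zpowers v := by
    have := Nat.find_spec hex
    rw [hj, pow_succ, pow_mul, pow_two] at this
    exact this
  have hcv : Commute (b ^ 2 ^ j) v := no_outer hC hp hv hn ha0 hjs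
  have hE : b ^ 2 ^ j * b ^ 2 ^ j ∈ even v := by
    by_contra hne
    exact hb (commute_of_not_even hp hjs hne
      (((Commute.refl b).pow_right _).mul_right ((Commute.refl b).pow_right _)))
  obtain ⟨c, hc, hcπ, hcfix⟩ := exists_split_of_sq_even hcv hjn hE
  have hcS : c ∈ S := pre_le (v := v) hVS (pow_mem hbS _) (mem_comap.2 (by rw [hcπ]; exact mem_zpowers _))
  have hcL : ∀ l ∈ L, Commute l c := fun l hl => hcfix l
    ((show Commute l b from mem_centralizer_iff.1 hbL l hl).pow_right _) (hLv l hl)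
  -- all split elements of `S` are `S`-conjugate to `c` modulo `⟨v⟩`
  have hconjS : ∀ a, Split v a → a ∈ S → ∃ s ∈ S, π (s * c * s⁻¹) = π a := by
    intro a ha haS
    obtain ⟨g, hg, hga⟩ := exists_normalizer_conj hC hp h4 hn hc ha hcS haS
    obtain ⟨⟨s, l⟩, hsl⟩ := hL'.2 ⟨g, hg⟩
    refine ⟨(s.1.1 : G), mem_subgroupOf.1 s.2, ?_⟩
    have hge : g = (s.1.1 : G) * l.1.1 := (congrArg Subtype.val hsl).symm
    have hl : (l.1.1 : G) ∈ L := ⟨l.1, l.2, rfl⟩
    have he : g * c * g⁻¹ = (s.1.1 : G) * c * (s.1.1 : G)⁻¹ := by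
      rw [hge, mul_inv_rev, mul_assoc (s.1.1 : G) (l.1.1 : G) c, (hcL _ hl).eq]
      simp only [mul_assoc, mul_inv_cancel_left]
    rw [← he]
    exact hga
  -- `π c` is central in `π S`
  have hPp : IsPGroup 2 ((S : Subgroup G).map π) := S.isPGroup'.map π
  have hxP : π c ∈ (S : Subgroup G).map π := mem_map_of_mem π hcS
  have hcen : (⟨π c, hxP⟩ : (S : Subgroup G).map π) ∈ center _ := by
    refine mem_center_of_conj_product hPp (Subtype.ext (sq_map_one hc.sq_mem)) ?_
    rintro ⟨_, s, hs, rfl⟩ hcomm hne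
    have hcomm' : Commute (π c) (π (s * c * s⁻¹)) := by
      have := congrArg Subtype.val hcomm.eq
      simpa [map_mul, map_inv, Commute, SemiconjBy] using this
    have hne' : π (s * c * s⁻¹) ≠ π c := fun he => hne (Subtype.ext (by simpa [map_mul, map_inv] using he))
    obtain ⟨c', hc'⟩ : ∃ c', c' = s * c * s⁻¹ := ⟨_, rfl⟩
    have hc's : Split v c' := hc' ▸ hc.conj s
    obtain ⟨q, hq⟩ : ∃ q, q = c * c' := ⟨_, rfl⟩
    have hqv : Commute q v := hq ▸ hc.1.mul_left hc's.1
    have hq2 : q * q ∈ zpowers v := by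
      rw [← QuotientGroup.eq_one_iff]
      show π (q * q) = 1
      have hcomm2 : Commute (π c') (π c) := by rw [hc']; exact hcomm'.symm
      rw [hq, map_mul, map_mul, hcomm2.mul_mul_mul_comm, sq_map_one hc.sq_mem,
        sq_map_one hc's.sq_mem, one_mul]
    have hqV : q ∉ zpowers v := by
      intro h
      apply hne'
      have h1 : π q = 1 := (QuotientGroup.eq_one_iff _).2 h
      rw [hq, map_mul, hc'] at h1
      rw [eq_inv_of_mul_eq_one_right h1, ← map_inv, inv_eq_of_mul_eq_one_right hc.2.1]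
    have hqE : q * q ∈ even v := by
      refine even_of_invol h4 hq2 ?_
      have h1 : c * q * c⁻¹ = q⁻¹ := by
        rw [inv_eq_of_mul_eq_one_right hc.2.1, hq, mul_inv_rev,
          inv_eq_of_mul_eq_one_right hc.2.1, inv_eq_of_mul_eq_one_right hc's.2.1,
          ← mul_assoc c c c', hc.2.1, one_mul]
      have h2 : c * (q * q) * c⁻¹ = (q * q)⁻¹ := by
        rw [← conj_mul, h1, mul_inv_rev]
      rw [(commute_mem_v hc.1 hq2).eq, mul_inv_cancel_right] at h2
      exact mul_eq_one_iff_eq_inv.2 h2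
    obtain ⟨e, he, heπ, -⟩ := exists_split_of_sq_even hqv hqV hqE
    have hqS : q ∈ S := hq ▸ mul_mem hcS (hc' ▸ mul_mem (mul_mem hs hcS) (inv_mem hs))
    have heS : e ∈ S := pre_le (v := v) hVS hqS (mem_comap.2 (heπ ▸ mem_zpowers _))
    obtain ⟨t, ht, htπ⟩ := hconjS e he heS
    refine ⟨⟨π t, mem_map_of_mem π ht⟩, Subtype.ext ?_⟩
    show π t * π c * (π t)⁻¹ = π c * (π s * π c * (π s)⁻¹)
    simp only [← map_inv, ← map_mul]
    rw [htπ, heπ, hq, hc']
  -- hence it is isolated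
  have hiso : ∀ a, Split v a → a ∈ S → π a = π c := by
    intro a ha haS
    obtain ⟨s, hs, hsa⟩ := hconjS a ha haS
    have := congrArg Subtype.val (mem_center_iff.1 hcen ⟨π s, mem_map_of_mem π hs⟩)
    simp only [Subgroup.coe_mul] at this
    rw [← hsa, map_mul, map_mul, map_inv, this, mul_inv_cancel_right]
  let Sb : Sylow 2 (G ⧸ zpowers v) := S.mapSurjective (QuotientGroup.mk'_surjective (zpowers v))
  have hc1 : π c ≠ 1 := fun h => hc.2.2 ((QuotientGroup.eq_one_iff c).1 h)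
  have hco : orderOf (π c) = 2 :=
    orderOf_eq_prime (by rw [pow_two]; exact sq_map_one hc.sq_mem) hc1
  obtain ⟨N, hNn, hNodd, hNc⟩ := Cfsg.Agent.S0215.result Sb (π c) hco
    (mem_map_of_mem π hcS) (by
      intro y hy
      obtain ⟨g, rfl⟩ := QuotientGroup.mk'_surjective (zpowers v) y
      rw [← map_inv, ← map_mul, ← map_mul] at hy ⊢
      obtain ⟨s, hs, hse⟩ := hy
      have hgS : g * c * g⁻¹ ∈ S := by
        refine pre_le (v := v) hVS hs (mem_comap.2 ?_)
        rw [← hse]; exact mem_zpowers _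
      exact hiso _ (hc.conj g) hgS)
  -- the preimage of `N` splits over `⟨v⟩`, so it is `⟨v⟩`
  set K := N.comap π with hKdef
  have hKn : K.Normal := hNn.comap π
  have hVK : zpowers v ≤ K := fun y hy => by
    rw [hKdef, mem_comap]
    show QuotientGroup.mk' (zpowers v) y ∈ N
    rw [QuotientGroup.mk'_apply, (QuotientGroup.eq_one_iff y).2 hy]; exact one_mem _
  have hKC : ∀ k ∈ K, Commute k v := by
    intro k hk
    obtain ⟨m, i, hm, hord, ho⟩ := exists_two_part k
    refine commute_of_two_part hp hm ho ?_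
    have h1 : orderOf (π (k ^ m)) ∣ 2 ^ i := hord ▸ orderOf_map_dvd π _
    have h2 : orderOf (π (k ^ m)) ∣ Nat.card N :=
      Subgroup.orderOf_dvd_natCard N (mem_comap.1 (pow_mem hk m))
    have h3 : orderOf (π (k ^ m)) = 1 :=
      Nat.eq_one_of_dvd_coprimes ((Nat.coprime_two_left.2 hNodd).pow_left i) h1 h2
    exact (commute_mem_v (Commute.refl v)
      ((QuotientGroup.eq_one_iff _).1 (orderOf_eq_one_iff.1 h3))).symm
  set V' := (zpowers v).subgroupOf K with hV'
  have hV'i : V'.index = Nat.card N := by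
    show (zpowers v).relIndex K = _
    have hker : ((⊥ : Subgroup (G ⧸ zpowers v)).comap π).relIndex K = (zpowers v).relIndex K := by
      rw [MonoidHom.comap_bot, QuotientGroup.ker_mk']
    rw [← hker, relIndex_comap, hKdef, map_comap_eq_self_of_surjective
      (QuotientGroup.mk'_surjective _), relIndex_bot_left]
  obtain ⟨n, hncard⟩ := IsPGroup.iff_card.1 hp
  have hV'c : Nat.card V' = 2 ^ n :=
    (Nat.card_congr (subgroupOfEquivOfLe hVK).toEquiv).trans hncard
  obtain ⟨M, hM⟩ := exists_right_complement'_of_coprime (N := V')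
    (by rw [hV'i, hV'c]; exact (Nat.coprime_two_left.2 hNodd).pow_left n)
  have hMcard : Nat.card M = Nat.card N := by rw [← hM.symm.index_eq_card, hV'i]
  have hMn : M.Normal := by
    refine ⟨fun m hm k => ?_⟩
    obtain ⟨⟨w, m'⟩, hk⟩ := hM.2 k
    have hwc : Commute (w : K) ((m' : K) * m * (m' : K)⁻¹) := Subtype.ext
      ((commute_mem_v (hKC _ ((m' : K) * m * (m' : K)⁻¹).2) (mem_subgroupOf.1 w.2)).symm.eq)
    have : k * m * k⁻¹ = (m' : K) * m * (m' : K)⁻¹ := by
      have hk' : (w : K) * m' = k := hk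
      rw [← hk', mul_inv_rev]
      calc (w : K) * m' * m * ((m' : K)⁻¹ * (w : K)⁻¹) = w * (m' * m * (m' : K)⁻¹) * (w : K)⁻¹ := by group
        _ = _ := by rw [hwc.eq, mul_inv_cancel_right]
    rw [this]
    exact mul_mem (mul_mem m'.2 hm) (inv_mem m'.2)
  have hMK : M ≤ Cfsg.pPrimeCore 2 K :=
    Cores.le_pPrimeCore hMn (Nat.coprime_two_right.2 (hMcard ▸ hNodd))
  have hKbot : (Cfsg.pPrimeCore 2 K).map K.subtype = ⊥ := by
    refine le_bot_iff.1 ?_
    rw [← hO]
    exact Cores.map_subtype_pPrimeCore_le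
  have hN1 : N = ⊥ := by
    rw [← Subgroup.card_eq_one, ← hMcard, Subgroup.card_eq_one, ← le_bot_iff]
    refine hMK.trans ?_
    rw [(map_eq_bot_iff_of_injective _ K.subtype_injective).1 hKbot]
  -- so `⟨v, c⟩` is normal
  have hpn : (pre v c).Normal := by
    refine ⟨fun y hy g => ?_⟩
    obtain ⟨i, hi⟩ := mem_zpowers_iff.1 (mem_comap.1 hy)
    refine mem_comap.2 ?_
    rw [map_mul, map_mul, map_inv, ← hi]
    have h1 := hNc (π g)
    rw [hN1, mem_bot, mul_inv_eq_one, mul_inv_eq_iff_eq_mul] at h1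
    have h2 : Commute (π g) (π c) := h1.symm
    rw [(h2.zpow_right i).eq, mul_inv_cancel_right]
    exact zpow_mem (mem_zpowers _) i
  obtain ⟨S1, T1, hST⟩ := hn
  have hp2 := pre_isPGroup hp (isPGroup_zpowers_of_sq (sq_map_one hc.sq_mem))
  have hle : ∀ R : Sylow 2 G, pre v c ≤ R := fun R =>
    le_sup_left.trans (R.is_maximal' (hp2.to_sup_of_normal_left R.isPGroup') le_sup_right).le
  exact hST (sylow_eq hC (hc.nc hp hv) (hle S1) (hle T1))

end Central

end Cfsg.Agent.Inv65.CycRad
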