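import Cfsg.Agent.Inv65.CycRadical

/-!
# The solvable radical when Sylow 2-intersections are cyclic
-/

set_option autoImplicit false

namespace Cfsg.Agent.Inv65.CycRad

open Subgroup

universe u

variable {G : Type u} [Group G] [Finite G]

/-- The hypothesis passes to quotients by normal subgroups of odd order. -/
theorem cycInt_quotient (hC : CycInt G) (O : Subgroup G) [O.Normal] : CycInt (G ⧸ O) := by
  have : Fact (Nat.Prime 2) := ⟨Nat.prime_two⟩
  intro S T hST
  set π := QuotientGroup.mk' O with hπ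
  have hs : Function.Surjective π := QuotientGroup.mk'_surjective O
  set R : Subgroup (G ⧸ O) := (S : Subgroup _) ⊓ T with hR
  have hR2 : IsPGroup 2 R := S.isPGroup'.to_le inf_le_left
  obtain ⟨P⟩ : Nonempty (Sylow 2 (R.comap π)) := inferInstance
  set φ : R.comap π →* R := π.subgroupComap R with hφ
  have hφs : Function.Surjective φ := π.subgroupComap_surjective_of_surjective R hs
  have hPR : (P : Subgroup _).map φ = ⊤ := by
    have h1 := ((P.mapSurjective hφs).is_maximal' (Q := ⊤)
      (hR2.of_equiv Subgroup.topEquiv.symm) le_top).symm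
    simpa using h1
  set P' : Subgroup G := (P : Subgroup _).map (R.comap π).subtype with hP'
  have hP'2 : IsPGroup 2 P' := P.isPGroup'.map _
  have key : ∀ S : Sylow 2 (G ⧸ O), R ≤ S → ∃ S' : Sylow 2 G, P' ≤ S' ∧
      (S' : Subgroup G).map π = S := by
    intro S hRS
    obtain ⟨S₀, hS₀⟩ := Sylow.mapSurjective_surjective hs 2 S
    have hS₀' : (S₀ : Subgroup G).map π = S := congrArg Sylow.toSubgroup hS₀
    set H := (S : Subgroup (G ⧸ O)).comap π with hH
    have hS₀H : (S₀ : Subgroup G) ≤ H := map_le_iff_le_comap.1 hS₀'.le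
    have hP'H : P' ≤ H := (map_subtype_le _).trans (comap_mono hRS)
    obtain ⟨W, hW⟩ := (hP'2.comap_subtype (K := H)).exists_le_sylow
    obtain ⟨h, hh⟩ := MulAction.exists_smul_eq H (S₀.subtype hS₀H) W
    refine ⟨(h : G) • S₀, ?_, ?_⟩
    · intro x hx
      have h1 : (⟨x, hP'H hx⟩ : H) ∈ W := hW (by simpa [mem_subgroupOf] using hx)
      have h2 : (⟨x, hP'H hx⟩ : H) ∈ h • S₀.subtype hS₀H := by rw [hh]; exact h1
      have h3 : (⟨x, hP'H hx⟩ : H) ∈ ((h • S₀.subtype hS₀H : Sylow 2 H) : Subgroup H) := h2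
      rw [Sylow.smul_def, Sylow.pointwise_smul_def, Subgroup.mem_pointwise_smul_iff_inv_smul_mem,
        Sylow.coe_subtype, mem_subgroupOf] at h3
      show x ∈ (((h : G) • S₀ : Sylow 2 G) : Subgroup G)
      rw [Sylow.smul_def, Sylow.pointwise_smul_def, Subgroup.mem_pointwise_smul_iff_inv_smul_mem]
      simpa using h3
    · apply le_antisymm
      · rintro _ ⟨x, hx, rfl⟩
        rw [Sylow.smul_def, Sylow.pointwise_smul_def] at hx
        obtain ⟨y, hy, rfl⟩ := (Subgroup.mem_smul_pointwise_iff_exists _ _ _).1 hx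
        show π ((h : G) * y * (h : G)⁻¹) ∈ (S : Subgroup _)
        rw [map_mul, map_mul, map_inv]
        have hh' : π (h : G) ∈ (S : Subgroup _) := h.2
        exact mul_mem (mul_mem hh' (hS₀' ▸ mem_map_of_mem π hy)) (inv_mem hh')
      · intro y hy
        have hh' : π (h : G) ∈ (S : Subgroup _) := h.2
        have hy' : (π (h : G))⁻¹ * y * π (h : G) ∈ (S₀ : Subgroup G).map π :=
          hS₀'.symm ▸ mul_mem (mul_mem (inv_mem hh') hy) hh'
        obtain ⟨x, hx, hxe⟩ := hy'
        refine ⟨(h : G) * x * (h : G)⁻¹, conj_mem_smul _ hx, ?_⟩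
        rw [map_mul, map_mul, map_inv, hxe]
        group
  obtain ⟨S', hS', hS'm⟩ := key S inf_le_left
  obtain ⟨T', hT', hT'm⟩ := key T inf_le_right
  have hne : S' ≠ T' := fun h => hST (Sylow.ext (hS'm.symm.trans (h ▸ hT'm)))
  have := hC S' T' hne
  have hP'c : IsCyclic P' := isCyclic_of_injective (inclusion (le_inf hS' hT')) (inclusion_injective _)
  have hPc : IsCyclic (P : Subgroup _) :=
    isCyclic_of_surjective ((P : Subgroup _).equivMapOfInjective _ (R.comap π).subtype_injective).symm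
      (MulEquiv.surjective _)
  refine isCyclic_of_surjective (φ.domRestrict (P : Subgroup _)) fun y => ?_
  obtain ⟨x, hx, hxy⟩ := (hPR ▸ mem_top y : y ∈ (P : Subgroup _).map φ)
  exact ⟨⟨x, hx⟩, hxy⟩

theorem exists_ne_sylow
    (hFT : ∀ (H : Type u) [Group H] [Finite H], Odd (Nat.card H) → Group.IsSolvable H)
    (hns : ¬ Group.IsSolvable G) : ∃ S T : Sylow 2 G, S ≠ T := by
  have : Fact (Nat.Prime 2) := ⟨Nat.prime_two⟩
  by_contra h
  push Not at h
  obtain ⟨S⟩ : Nonempty (Sylow 2 G) := inferInstance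
  have hsub : Subsingleton (Sylow 2 G) := ⟨h⟩
  have hSn : (S : Subgroup G).Normal := Sylow.normal_of_subsingleton S
  have h1 : Odd (Nat.card (G ⧸ (S : Subgroup G))) := by
    rw [← Subgroup.index_eq_card, ← Nat.not_even_iff_odd, even_iff_two_dvd]
    exact S.not_dvd_index
  apply hns
  have := hFT _ h1
  have : Group.IsNilpotent (S : Subgroup G) := S.isPGroup'.isNilpotent
  exact (Group.isSolvable_iff_subgroup_quotient (S : Subgroup G)).2 ⟨inferInstance, inferInstance⟩

theorem main (hFT : ∀ (H : Type u) [Group H] [Finite H], Odd (Nat.card H) → Group.IsSolvable H)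
    (hns : ¬ Group.IsSolvable G) (hC : CycInt G) (N : Subgroup G) [N.Normal]
    (hN : Group.IsSolvable N) :
    IsCyclic ↥(N.map (QuotientGroup.mk' (Cfsg.oddCore G))) ∧
      IsPGroup 2 ↥(N.map (QuotientGroup.mk' (Cfsg.oddCore G))) ∧
      N.map (QuotientGroup.mk' (Cfsg.oddCore G)) ≤ center (G ⧸ Cfsg.oddCore G) := by
  have : Fact (Nat.Prime 2) := ⟨Nat.prime_two⟩
  set O := Cfsg.oddCore G
  have hOodd : Odd (Nat.card O) := Nat.coprime_two_right.1 Cores.pPrimeCore_coprime
  have hns' : ¬ Group.IsSolvable (G ⧸ O) := fun h => hns <|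
    (Group.isSolvable_iff_subgroup_quotient O).2 ⟨hFT O hOodd, h⟩
  have hO : Cfsg.pPrimeCore 2 (G ⧸ O) = ⊥ := Cores.pPrimeCore_quotient_pPrimeCore_eq_bot
  have hC' := cycInt_quotient hC O
  have hn := exists_ne_sylow hFT hns'
  set M := N.map (QuotientGroup.mk' O) with hM
  have hMn : M.Normal := (inferInstance : N.Normal).map _ (QuotientGroup.mk'_surjective O)
  have hMs : Group.IsSolvable M :=
    Group.isSolvable_of_surjective (MonoidHom.subgroupMap_surjective (QuotientGroup.mk' O) N)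
  have hle : ∀ (X : Subgroup (G ⧸ O)), X.Normal → IsPGroup 2 X → IsCyclic X := by
    intro X hX hX2
    obtain ⟨S, T, hST⟩ := hn
    have := hC' S T hST
    have h : ∀ R : Sylow 2 (G ⧸ O), X ≤ R := fun R => (Cores.le_pCore hX hX2).trans (Cores.pCore_le_sylow R)
    exact isCyclic_of_injective (inclusion (le_inf (h S) (h T))) (inclusion_injective _)
  have hM2 : IsPGroup 2 M := by
    have hMO : Cfsg.pPrimeCore 2 M = ⊥ :=
      (map_eq_bot_iff_of_injective _ M.subtype_injective).1
        (le_bot_iff.1 (Cores.map_subtype_pPrimeCore_le.trans hO.le))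
    have hC2 := PSolv.centralizer_pCore_le (PSolv.isPSolvable_of_isSolvable (p := 2) hMs) hMO
    have hP := PSolv.isPGroup_pCore 2 M
    have hPn : ((Cfsg.pCore 2 M).map M.subtype).Normal := Cores.normal_map_subtype_of_characteristic _
    have hPc : IsCyclic ((Cfsg.pCore 2 M).map M.subtype) := hle _ hPn (hP.map _)
    have : IsCyclic (Cfsg.pCore 2 M) :=
      isCyclic_of_surjective ((Cfsg.pCore 2 M).equivMapOfInjective _ M.subtype_injective).symm
        (MulEquiv.surjective _)
    exact SylowInter.isPGroup_of_isPGroup_mulAut hP hC2 (SylowInter.isPGroup_mulAut_of_isCyclic hP)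
  have hMc := hle M hMn hM2
  refine ⟨hMc, hM2, ?_⟩
  obtain ⟨⟨v, hvM⟩, hv⟩ := hMc.exists_generator
  have hvM' : zpowers v = M := by
    refine le_antisymm (zpowers_le.2 hvM) fun x hx => ?_
    obtain ⟨i, hi⟩ := mem_zpowers_iff.1 (hv ⟨x, hx⟩)
    exact mem_zpowers_iff.2 ⟨i, congrArg Subtype.val hi⟩
  have : (zpowers v).Normal := by rw [hvM']; exact hMn
  have hv2 : IsPGroup 2 (zpowers v) := by rw [hvM']; exact hM2
  rw [← hvM']
  exact zpowers_le.2 (central hFT hns' hO hC' hn hv2)

end Cfsg.Agent.Inv65.CycRad
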